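import Mathlib
import Cfsg.Agent.Perm1.Count
import Cfsg.Agent.Pres.SylowSub

/-!
Symmetric designs: Brauer's lemma and the orbit theorem.
-/

set_option autoImplicit false

namespace Cfsg.Agent.Geom

open MulAction

open Classical in
theorem ncard_eq_sum {α R : Type*} [Fintype α] [AddCommMonoidWithOne R] (p : α → Prop) :
    (({x | p x}.ncard : ℕ) : R) = ∑ x, if p x then 1 else 0 := by
  rw [Finset.sum_boole, Set.ncard_eq_toFinset_card']
  congr 2
  ext; simp

theorem brauer {Ω B : Type*} [Finite Ω] [Finite B] (I : Ω → B → Prop) (r l : ℕ)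
    (hc : Nat.card Ω = Nat.card B) (hr : ∀ x, {C | I x C}.ncard = r)
    (hl : ∀ x y, x ≠ y → {C | I x C ∧ I y C}.ncard = l) (hlr : l < r)
    (σ : Equiv.Perm Ω) (τ : Equiv.Perm B) (h : ∀ x C, I (σ x) (τ C) ↔ I x C) :
    {x | σ x = x}.ncard = {C | τ C = C}.ncard := by
  classical
  letI := Fintype.ofFinite Ω
  letI := Fintype.ofFinite B
  let A : Matrix Ω B ℚ := Matrix.of fun x C => if I x C then 1 else 0
  let J : Matrix Ω Ω ℚ := Matrix.of fun _ _ => 1
  obtain ⟨n, hn⟩ : ∃ n : ℚ, n = (Fintype.card Ω : ℚ) := ⟨_, rfl⟩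
  have hn0 : 0 ≤ n := by rw [hn]; positivity
  have hJ : J * J = n • J := by
    ext x y; simp [J, Matrix.mul_apply, hn]
  have hA : A * A.transpose = ((r : ℚ) - l) • (1 : Matrix Ω Ω ℚ) + (l : ℚ) • J := by
    ext x y
    have : (A * A.transpose) x y = ({C | I x C ∧ I y C}.ncard : ℕ) := by
      rw [ncard_eq_sum, Matrix.mul_apply]
      refine Finset.sum_congr rfl fun C _ => ?_
      simp only [A, Matrix.transpose_apply, Matrix.of_apply]
      by_cases h1 : I x C <;> by_cases h2 : I y C <;> simp [h1, h2]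
    rw [this]
    by_cases hxy : x = y
    · subst hxy
      simp [J, hr x]
    · rw [hl x y hxy]
      simp [J, hxy]
  have h1 : (0 : ℚ) < (r : ℚ) - l := by
    have : (l : ℚ) < r := by exact_mod_cast hlr
    linarith
  have h2 : (0 : ℚ) < (r : ℚ) - l + l * n := by positivity
  let M : Matrix Ω Ω ℚ := ((r : ℚ) - l)⁻¹ • (1 : Matrix Ω Ω ℚ) -
    ((l : ℚ) / (((r : ℚ) - l) * ((r : ℚ) - l + l * n))) • J
  have hAB : A * (A.transpose * M) = 1 := by
    rw [← Matrix.mul_assoc, hA]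
    simp only [M, Matrix.mul_sub, Matrix.add_mul, Matrix.smul_mul, Matrix.mul_smul, Matrix.one_mul,
      Matrix.mul_one, hJ, smul_add, smul_smul]
    have e1 : ((r : ℚ) - l)⁻¹ * ((r : ℚ) - l) = 1 := inv_mul_cancel₀ h1.ne'
    have e2 : ((r : ℚ) - l)⁻¹ * l = (l : ℚ) / (((r : ℚ) - l) * ((r : ℚ) - l + l * n)) * ((r : ℚ) - l) +
        (l : ℚ) / (((r : ℚ) - l) * ((r : ℚ) - l + l * n)) * (l * n) := by
      field_simp
    rw [e1, e2, add_smul, one_smul]
    abel
  have e : Ω ≃ B := Fintype.equivOfCardEq (by simpa [Nat.card_eq_fintype_card] using hc)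
  have hBA : (A.transpose * M) * A = 1 := (Matrix.mul_eq_one_comm_of_equiv e).1 hAB
  let P : Matrix Ω Ω ℚ := Matrix.of fun x y => if σ x = y then 1 else 0
  let Q : Matrix B B ℚ := Matrix.of fun x y => if τ x = y then 1 else 0
  have hPQ : P * A = A * Q := by
    ext x D
    obtain ⟨C, rfl⟩ := τ.surjective D
    rw [Matrix.mul_apply, Matrix.mul_apply, Finset.sum_eq_single (σ x), Finset.sum_eq_single C]
    · simp [P, Q, A, h]
    · intro b _ hb; simp [Q, hb]
    · simp
    · intro b _ hb; simp [P, hb.symm]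
    · simp
  have ht : P.trace = Q.trace := by
    calc P.trace = (P * (A * (A.transpose * M))).trace := by rw [hAB, Matrix.mul_one]
      _ = (A * (Q * (A.transpose * M))).trace := by
        rw [← Matrix.mul_assoc, hPQ, Matrix.mul_assoc]
      _ = _ := by rw [Matrix.trace_mul_comm, Matrix.mul_assoc, hBA, Matrix.mul_one]
  have : (({x | σ x = x}.ncard : ℕ) : ℚ) = ({C | τ C = C}.ncard : ℕ) := by
    rw [ncard_eq_sum, ncard_eq_sum]
    simp only [Matrix.trace, Matrix.diag, P, Q, Matrix.of_apply] at ht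
    convert ht
  exact_mod_cast this

section orbits

variable {G Y : Type*} [Group G] [MulAction G Y] [Finite Y]

theorem card_orbits_eq_two (Q : Y → Prop) (hQ : ∀ (g : G) y, Q (g • y) ↔ Q y) {a b : Y} (ha : Q a)
    (hb : ¬ Q b) : Nat.card (orbitRel.Quotient G Y) = 2 ↔
      ∀ y y', (Q y ↔ Q y') → ∃ g : G, g • y = y' := by
  let f : orbitRel.Quotient G Y → Prop := Quotient.lift Q (by
    rintro _ y ⟨g, rfl⟩
    exact propext (hQ g y))
  have hs : Function.Surjective f := by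
    intro p
    by_cases hp : p
    · exact ⟨Quotient.mk _ a, propext ⟨fun _ => hp, fun _ => ha⟩⟩
    · exact ⟨Quotient.mk _ b, propext ⟨fun h => absurd h hb, fun h => absurd h hp⟩⟩
  have hP : Nat.card Prop = 2 := by simp
  constructor
  · intro h y y' e
    have := ((Nat.bijective_iff_surjective_and_card f).2 ⟨hs, h.trans hP.symm⟩).1
      (a₁ := Quotient.mk _ y') (a₂ := Quotient.mk _ y) (propext e.symm)
    exact Quotient.exact this
  · intro h
    rw [← hP]
    refine Nat.card_eq_of_bijective f ⟨?_, hs⟩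
    intro u v e
    induction u using Quotient.inductionOn
    induction v using Quotient.inductionOn
    exact Quotient.sound (h _ _ (iff_of_eq e.symm))

end orbits

theorem design_trans {G Ω B : Type*} [Group G] [Finite G] [MulAction G Ω] [MulAction G B]
    [Finite Ω] [Finite B] (I : Ω → B → Prop) (r l : ℕ)
    (hc : Nat.card Ω = Nat.card B) (hr : ∀ x, {C | I x C}.ncard = r)
    (hl : ∀ x y, x ≠ y → {C | I x C ∧ I y C}.ncard = l) (hlr : l < r)
    (h : ∀ (g : G) x C, I (g • x) (g • C) ↔ I x C) [Nontrivial Ω]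
    (h2 : ∀ x y x' y' : Ω, x ≠ y → x' ≠ y' → ∃ g : G, g • x = x' ∧ g • y = y') :
    (∀ C D C' D' : B, C ≠ D → C' ≠ D' → ∃ g : G, g • C = C' ∧ g • D = D') ∧
    ∀ x x' C C', (I x C ↔ I x' C') → ∃ g : G, g • x = x' ∧ g • C = C' := by
  letI := Fintype.ofFinite G
  have hb : ∀ g : G, Nat.card (fixedBy B g) = Nat.card (fixedBy Ω g) := fun g =>
    (brauer I r l hc hr hl hlr (toPerm g) (toPerm g) (h g)).symm
  obtain ⟨x, y, hxy⟩ := exists_pair_ne Ω
  haveI : Nontrivial B := by
    rw [← Finite.one_lt_card_iff_nontrivial, ← hc, Finite.one_lt_card_iff_nontrivial]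
    infer_instance
  obtain ⟨C, D, hCD⟩ := exists_pair_ne B
  have h1 : Nat.card (orbitRel.Quotient G (Ω × Ω)) = 2 := by
    rw [card_orbits_eq_two (fun p : Ω × Ω => p.1 = p.2) (fun g p => smul_left_cancel_iff g)
      (a := (x, x)) (b := (x, y)) rfl hxy]
    rintro ⟨a, b⟩ ⟨a', b'⟩ e
    by_cases hab : a = b
    · obtain rfl : a' = b' := e.1 hab
      subst hab
      obtain ⟨c, hc⟩ := exists_ne a
      obtain ⟨c', hc'⟩ := exists_ne a'
      obtain ⟨g, e, -⟩ := h2 a c a' c' hc.symm hc'.symm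
      exact ⟨g, Prod.ext e e⟩
    · obtain ⟨g, e1, e2⟩ := h2 a b a' b' hab (fun e' => hab (e.2 e'))
      exact ⟨g, Prod.ext e1 e2⟩
  have s1 := Perm1.sum_fixedBy G (Ω × Ω)
  have s2 := Perm1.sum_fixedBy G (B × B)
  have s3 := Perm1.sum_fixedBy G (Ω × B)
  simp only [Perm1.card_fixedBy_prod, hb] at s1 s2 s3
  rw [s1, h1] at s2 s3
  have h3 := (Nat.eq_of_mul_eq_mul_right Nat.card_pos s2).symm
  have h4 := (Nat.eq_of_mul_eq_mul_right Nat.card_pos s3).symm
  rw [card_orbits_eq_two (fun p : B × B => p.1 = p.2) (fun g p => smul_left_cancel_iff g)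
      (a := (C, C)) (b := (C, D)) rfl hCD] at h3
  obtain ⟨E, hE1, hE2⟩ : ∃ E, I x E ∧ ¬ I y E := by
    by_contra! hh
    have := Set.ncard_le_ncard (show {C | I x C} ⊆ {C | I x C ∧ I y C} from
      fun C h => ⟨h, hh C h⟩)
    rw [hr, hl x y hxy] at this
    omega
  rw [card_orbits_eq_two (fun p : Ω × B => I p.1 p.2) (fun g p => h g _ _)
      (a := (x, E)) (b := (y, E)) hE1 hE2] at h4
  refine ⟨fun C D C' D' h h' => ?_, fun x x' C C' e => ?_⟩
  · obtain ⟨g, e⟩ := h3 (C, D) (C', D') (iff_of_false h h')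
    exact ⟨g, congrArg Prod.fst e, congrArg Prod.snd e⟩
  · obtain ⟨g, e⟩ := h4 (x, C) (x', C') e
    exact ⟨g, congrArg Prod.fst e, congrArg Prod.snd e⟩

end Cfsg.Agent.Geom
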